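import Cfsg.Agent.Lib.Two.Order

/-!
An arbitrarily large group `M₂(q)^ι ⋊ (2 × L₂(q))`, `q` an odd power of 3, with element orders
exactly the divisors of 9, 6, `q - 1` and `(q + 1)/2`.
-/

set_option autoImplicit false

namespace Cfsg.Agent.Lib.ReeCube

open Matrix
open scoped MatrixGroups

variable {F : Type*} [Field F] [CharP F 3] (ι : Type*)

local notation "Mat" => Matrix (Fin 2) (Fin 2) F

/-- The conjugate matrix under the cubing map. -/
def tw (g : SL(2, F)) : SL(2, F) := Matrix.SpecialLinearGroup.map (frobenius F 3) g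

theorem tw_apply (g : SL(2, F)) (i j : Fin 2) : (tw g).1 i j = (g.1 i j) ^ 3 := rfl

theorem tw_trace (g : SL(2, F)) : (tw g).1.trace = g.1.trace ^ 3 := by
  rw [trace_fin_two, trace_fin_two, tw_apply, tw_apply, add_pow_char]

/-- The twisted action on a single matrix. -/
def lin (p : SL(2, F) × ℤˣ) (X : Mat) : Mat := ((p.2 : ℤ) : F) • (p.1.1 * X * (tw p.1).1ᵀ)

theorem lin_mul (p r : SL(2, F) × ℤˣ) (X : Mat) : lin (p * r) X = lin p (lin r X) := by
  simp only [lin, tw, Prod.fst_mul, Prod.snd_mul, map_mul, Matrix.SpecialLinearGroup.coe_mul,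
    Matrix.transpose_mul, Units.val_mul, Int.cast_mul, mul_smul_comm, smul_mul_assoc, smul_smul,
    Matrix.mul_assoc]

theorem lin_one (X : Mat) : lin 1 X = X := by simp [lin, tw]

theorem lin_add (p : SL(2, F) × ℤˣ) (X Y : Mat) : lin p (X + Y) = lin p X + lin p Y := by
  simp [lin, Matrix.mul_add, Matrix.add_mul, smul_add]

abbrev Vec (F : Type*) [Field F] (ι : Type*) := Multiplicative (ι → Matrix (Fin 2) (Fin 2) F)

/-- The twisted action on the module. -/
def act : SL(2, F) × ℤˣ →* MulAut (Vec F ι) where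
  toFun p :=
    { toFun := fun v => Multiplicative.ofAdd fun i => lin p (v.toAdd i)
      invFun := fun v => Multiplicative.ofAdd fun i => lin p⁻¹ (v.toAdd i)
      left_inv := fun v => by
        refine Multiplicative.toAdd.injective (funext fun i => ?_)
        simp [← lin_mul, lin_one]
      right_inv := fun v => by
        refine Multiplicative.toAdd.injective (funext fun i => ?_)
        simp [← lin_mul, lin_one]
      map_mul' := fun v w => by
        refine Multiplicative.toAdd.injective (funext fun i => ?_)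
        simp [lin_add] }
  map_one' := by
    refine MulEquiv.ext fun v => Multiplicative.toAdd.injective (funext fun i => ?_)
    simp [lin_one]
  map_mul' p r := by
    refine MulEquiv.ext fun v => Multiplicative.toAdd.injective (funext fun i => ?_)
    simp [lin_mul]

theorem act_apply (p : SL(2, F) × ℤˣ) (v : Vec F ι) (i : ι) :
    (act ι p v).toAdd i = lin p (v.toAdd i) := rfl

theorem act_eq_one {p : SL(2, F) × ℤˣ} (h : ∀ X, lin p X = X) : act ι p = 1 :=
  MulEquiv.ext fun _ => Multiplicative.toAdd.injective (funext fun _ => h _)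

theorem lin_of_act_eq_one [Nonempty ι] {p : SL(2, F) × ℤˣ} (h : act ι p = 1) (X : Mat) :
    lin p X = X := by
  obtain ⟨i⟩ := ‹Nonempty ι›
  have := act_apply ι p (Multiplicative.ofAdd fun _ => X) i
  rw [h] at this
  exact this.symm

variable (F) in
abbrev Grp := Vec F ι ⋊[(act (F := F) ι).range.subtype] (act (F := F) ι).range

theorem cube_vec (v : Vec F ι) : v ^ 3 = 1 := by
  refine Multiplicative.toAdd.injective (funext fun i => ?_)
  have h3 : (3 : F) = 0 := CharP.ofNat_eq_zero F 3
  ext a b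
  simp [nsmul_eq_mul, h3]

theorem pow_eq_inl (s : Grp F ι) {n : ℕ} (h : s.right ^ n = 1) :
    s ^ n = SemidirectProduct.inl (s ^ n).left ∧ s.right.1 (s ^ n).left = (s ^ n).left := by
  have hr : (s ^ n).right = 1 := by
    rw [← h]; exact map_pow SemidirectProduct.rightHom s n
  refine ⟨SemidirectProduct.ext rfl (by rw [hr]; rfl), ?_⟩
  have hc := congrArg SemidirectProduct.left ((Commute.refl s).pow_right n).eq
  rw [SemidirectProduct.mul_left, SemidirectProduct.mul_left, hr, map_one, MulAut.one_apply,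
    mul_comm (s ^ n).left] at hc
  exact mul_left_cancel hc

theorem pow_three_mul (s : Grp F ι) {n : ℕ} (h : s.right ^ n = 1) : s ^ (n * 3) = 1 := by
  rw [pow_mul, (pow_eq_inl ι s h).1, ← map_pow, cube_vec, map_one]

theorem pow_of_fpf (s : Grp F ι) {p : SL(2, F) × ℤˣ} (hp : act ι p = s.right.1) {n : ℕ}
    (h : act ι (p ^ n) = 1) (hf : ∀ X, lin p X = X → X = 0) : s ^ n = 1 := by
  have hn : s.right ^ n = 1 := Subtype.ext (by rw [SubgroupClass.coe_pow, ← hp, ← map_pow, h]; rfl)
  obtain ⟨h1, h2⟩ := pow_eq_inl ι s hn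
  have : (s ^ n).left = 1 := by
    refine Multiplicative.toAdd.injective (funext fun i => hf _ ?_)
    rw [← act_apply, hp, h2]
  rw [h1, this, map_one]

theorem lin_fixed {g : SL(2, F)} {ε : ℤˣ} {X : Mat} (h : lin (g, ε) X = X) (hX : X ≠ 0) :
    g.1.trace = ((ε : ℤ) : F) * g.1.trace ^ 3 := by
  set e : F := ((ε : ℤ) : F) with he
  have he2 : e * e = 1 := by
    rcases Int.units_eq_one_or ε with rfl | rfl <;> simp [he]
  set P := (tw g).1ᵀ with hP
  have hPP : P * P = (tw g).1.trace • P - 1 := by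
    rw [hP, ← Matrix.transpose_mul, Two.sl_two_sq, Matrix.transpose_sub, Matrix.transpose_smul,
      Matrix.transpose_one]
  set Q := ((tw g)⁻¹).1ᵀ with hQ
  have hPQ : P * Q = 1 := by
    rw [hP, hQ, ← Matrix.transpose_mul, ← Matrix.SpecialLinearGroup.coe_mul, inv_mul_cancel]
    simp
  have hQP : Q * P = 1 := by
    rw [hP, hQ, ← Matrix.transpose_mul, ← Matrix.SpecialLinearGroup.coe_mul, mul_inv_cancel]
    simp
  have hgX : g.1 * X * P = e • X := by
    conv_rhs => rw [← h]
    rw [lin, ← he, smul_smul, he2, one_smul]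
  have h1 : g.1 * X = e • (X * Q) := by
    rw [← smul_mul_assoc, ← hgX, Matrix.mul_assoc (g.1 * X), hPQ, Matrix.mul_one]
  have hQQ : Q * Q = (tw g).1.trace • Q - 1 := by
    calc Q * Q = Q * Q * ((tw g).1.trace • P - P * P) := by rw [hPP, sub_sub_cancel, Matrix.mul_one]
      _ = (tw g).1.trace • (Q * (Q * P)) - Q * (Q * P) * P := by
          rw [Matrix.mul_sub, Matrix.mul_smul]; simp only [Matrix.mul_assoc]
      _ = _ := by rw [hQP, Matrix.mul_one, hQP]
  have h3 : g.1 * (g.1 * X) = X * (Q * Q) := by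
    rw [h1, Matrix.mul_smul, ← Matrix.mul_assoc, h1, smul_mul_assoc, smul_smul, he2, one_smul,
      Matrix.mul_assoc]
  rw [hQQ, ← Matrix.mul_assoc, Two.sl_two_sq, Matrix.sub_mul, smul_mul_assoc, h1, Matrix.one_mul,
    Matrix.mul_sub, Matrix.mul_one, Matrix.mul_smul, sub_left_inj, smul_smul, tw_trace] at h3
  have h4 : (g.1.trace * e - g.1.trace ^ 3) • (X * Q) = 0 := by rw [sub_smul, h3, sub_self]
  rcases smul_eq_zero.1 h4 with h5 | h5
  · linear_combination e * h5 - g.1.trace * he2
  · exact absurd (by rw [← Matrix.mul_one X, ← hQP, ← Matrix.mul_assoc, h5, Matrix.zero_mul]) hX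

theorem lin_scalar {g : SL(2, F)} {ε : ℤˣ} {c : F} (hc : g.1 = c • 1) (hc4 : c ^ 4 = 1) (hε : ε = 1)
    (X : Mat) : lin (g, ε) X = X := by
  have ht : (tw g).1 = (c ^ 3) • 1 := by
    ext i j
    rw [tw_apply, hc]
    by_cases hij : i = j <;> simp [hij]
  rw [lin, hε, ht, hc]
  simp [smul_smul, ← pow_succ, ← pow_succ', hc4]

theorem scalar_of_sq {g : SL(2, F)} (h : g * g = 1) : ∃ c : F, g.1 = c • 1 ∧ c ^ 4 = 1 := by
  have h3 : (3 : F) = 0 := CharP.ofNat_eq_zero F 3
  have h2 : (2 : F) ≠ 0 := fun e => one_ne_zero (α := F) (by linear_combination h3 - e)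
  set t := g.1.trace
  have e : t • g.1 = (2 : F) • 1 := by
    have := Two.sl_two_sq g
    rw [← Matrix.SpecialLinearGroup.coe_mul, h, Matrix.SpecialLinearGroup.coe_one, eq_sub_iff_add_eq] at this
    rw [← this, two_smul]
  have ht : t ≠ 0 := fun e0 => by
    rw [e0, zero_smul] at e
    exact h2 (by simpa using (congrFun (congrFun e 0) 0).symm)
  refine ⟨2 / t, by rw [← inv_smul_smul₀ ht g.1, e, smul_smul]; congr 1; field_simp, ?_⟩
  have hg : g.1 = (2 / t) • 1 := by rw [← inv_smul_smul₀ ht g.1, e, smul_smul]; congr 1; field_simp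
  have h4 := congrArg (fun M : SL(2, F) => M.1 0 0) h
  simp [hg] at h4
  linear_combination ((2 / t) ^ 2 + 1) * h4

section Fintype

variable [Fintype F]

theorem sq_ne_neg_one {m : ℕ} (hq : Fintype.card F = 3 ^ (2 * m + 1)) (x : F) : x * x ≠ -1 := by
  intro h
  have hmod : Fintype.card F % 4 = 3 := by
    rw [hq, pow_succ, pow_mul, Nat.mul_mod, Nat.pow_mod]; norm_num
  exact FiniteField.isSquare_neg_one_iff.1 ⟨x, h.symm⟩ hmod

theorem four_root {m : ℕ} (hq : Fintype.card F = 3 ^ (2 * m + 1)) {x : F} (h : x ^ 4 = 1) :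
    x * x = 1 := by
  have : (x * x - 1) * (x * x + 1) = 0 := by linear_combination h
  rcases mul_eq_zero.1 this with h1 | h1
  · exact sub_eq_zero.1 h1
  · exact absurd (eq_neg_of_add_eq_zero_left h1) (sq_ne_neg_one hq x)

theorem pow_dichotomy {m : ℕ} (hq : Fintype.card F = 3 ^ (2 * m + 1)) (s : Grp F ι) :
    s ^ 9 = 1 ∨ s ^ 6 = 1 ∨ s ^ (Fintype.card F - 1) = 1 ∨ s ^ ((Fintype.card F + 1) / 2) = 1 := by
  obtain ⟨⟨g, ε⟩, hp⟩ := s.right.2
  have h3 : (3 : F) = 0 := CharP.ofNat_eq_zero F 3
  have hmod : Fintype.card F % 4 = 3 := by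
    rw [hq, pow_succ, pow_mul, Nat.mul_mod, Nat.pow_mod]; norm_num
  have hsq : ε * ε = 1 := Int.units_mul_self ε
  have heps : ∀ n, Even n → ε ^ n = 1 := fun n ⟨k, hk⟩ => by
    rw [hk, pow_add, ← mul_pow, hsq, one_pow]
  have hright : ∀ n, act ι ((g, ε) ^ n) = 1 → s.right ^ n = 1 := fun n h =>
    Subtype.ext (by rw [SubgroupClass.coe_pow, ← hp, ← map_pow, h]; rfl)
  set t := g.1.trace with ht
  by_cases h0 : t = 0
  · right; left
    refine pow_three_mul ι s (n := 2) (hright 2 (act_eq_one ι fun X => ?_))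
    refine lin_scalar (c := -1) ?_ (by ring) (heps 2 even_two) X
    show (g ^ 2).1 = _
    rw [sq, Matrix.SpecialLinearGroup.coe_mul, Two.sl_two_sq, ← ht, h0]
    simp
  by_cases h4 : t ^ 2 = 4
  · obtain ⟨c, hc, hc'⟩ := (Two.mem_center_iff_sign _).1 (Two.pow_char_mem_center 3 g h4)
    have hcube : ∀ ε' : ℤˣ, ε' = 1 → act ι (g ^ 3, ε') = 1 := fun ε' he =>
      act_eq_one ι fun X => lin_scalar (c := c) hc' (by linear_combination (c * c + 1) * hc) he X
    rcases Int.units_eq_one_or ε with rfl | rfl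
    · left
      refine pow_three_mul ι s (n := 3) (hright 3 ?_)
      rw [Prod.pow_def]; exact hcube _ (one_pow 3)
    · right; left
      refine pow_of_fpf ι s hp ?_ fun X hX => ?_
      · rw [show 6 = 3 * 2 from rfl, pow_mul, map_pow, Prod.pow_def, ← map_pow]
        rw [sq, Prod.mk_mul_mk, show g ^ 3 * g ^ 3 = (g ^ 3) * (g ^ 3) from rfl]
        rw [show ((g ^ 3 * g ^ 3, (-1 : ℤˣ) ^ 3 * (-1) ^ 3)) = (g ^ 3, 1) * (g ^ 3, 1) by
          simp [Prod.mk_mul_mk], map_mul, hcube 1 rfl, one_mul]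
      · have h' : lin ((g, -1) ^ 3) X = X := by
          rw [pow_succ, pow_two, lin_mul, lin_mul, hX, hX, hX]
        rw [Prod.pow_def] at h'
        have h1 : lin (g ^ 3, 1) X = X := lin_scalar (c := c) hc' (by linear_combination (c * c + 1) * hc) rfl X
        have h2 : lin (g ^ 3, (-1 : ℤˣ) ^ 3) X = - lin (g ^ 3, 1) X := by simp [lin]
        rw [h2, h1] at h'
        ext a b
        have := congrFun (congrFun h' a) b
        simp only [Matrix.neg_apply] at this
        simp only [Matrix.zero_apply]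
        linear_combination this + X a b * h3
  have hf : ∀ X, lin (g, ε) X = X → X = 0 := by
    intro X hX
    by_contra hne
    have e := lin_fixed hX hne
    rw [← ht] at e
    rcases Int.units_eq_one_or ε with rfl | rfl
    · have : t * (t * t - 1) = 0 := by simp at e; linear_combination -e
      exact h4 (by linear_combination (mul_eq_zero.1 this).resolve_left h0 - h3)
    · have : t * (t * t + 1) = 0 := by simp at e; linear_combination e
      exact sq_ne_neg_one hq t (eq_neg_of_add_eq_zero_left ((mul_eq_zero.1 this).resolve_left h0))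
  by_cases hsp : ∃ a : F, a * a - t * a + 1 = 0
  · obtain ⟨a, ha⟩ := hsp
    right; right; left
    refine pow_of_fpf ι s hp ?_ hf
    rw [Prod.pow_def, Two.pow_card_pred_eq_one g a ha h4, heps _ ⟨(Fintype.card F - 1) / 2, by omega⟩]
    exact map_one _
  · right; right; right
    refine pow_of_fpf ι s hp ?_ hf
    obtain ⟨c, hc, hc4⟩ := scalar_of_sq (g := g ^ ((Fintype.card F + 1) / 2)) (by
      rw [← pow_add, show (Fintype.card F + 1) / 2 + (Fintype.card F + 1) / 2 = Fintype.card F + 1 by omega]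
      exact Two.pow_card_succ_eq_one g hsp)
    rw [Prod.pow_def]
    exact act_eq_one ι fun X => lin_scalar hc hc4 (heps _ ⟨(Fintype.card F + 1) / 4, by omega⟩) X

/-- The upper unitriangular element. -/
def uu : SL(2, F) := ⟨!![1, 1; 0, 1], by simp [Matrix.det_fin_two]⟩

theorem lin_uu (e : ℤˣ) (a b c d : F) : lin (uu, e) !![a, b; c, d] =
    ((e : ℤ) : F) • !![a + b + c + d, b + d; c + d, d] := by
  rw [lin]
  congr 1
  have : (tw (uu : SL(2, F))).1 = !![1, 1; 0, 1] := by
    ext i j; rw [tw_apply]; fin_cases i <;> fin_cases j <;> simp [uu]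
  rw [this]
  ext i j
  fin_cases i <;> fin_cases j <;> simp [uu, Matrix.mul_apply, Fin.sum_univ_two] <;> ring

variable [Nonempty ι]

theorem exists_six : ∃ s : Grp F ι, orderOf s = 6 := by
  set x : (act (F := F) ι).range := ⟨act ι (uu, -1), ⟨_, rfl⟩⟩
  refine ⟨SemidirectProduct.inr x, ?_⟩
  rw [orderOf_injective _ SemidirectProduct.inr_injective, ← Subgroup.orderOf_coe]
  have h3 : (3 : F) = 0 := CharP.ofNat_eq_zero F 3
  have d : ∀ n, (act ι ((uu : SL(2, F)), (-1 : ℤˣ))) ^ n = 1 → ∀ X, lin (((uu : SL(2, F)), (-1 : ℤˣ)) ^ n) X = X :=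
    fun n h => lin_of_act_eq_one ι (by rw [map_pow, h])
  have c6 : act ι ((uu : SL(2, F)), (-1 : ℤˣ)) ^ 6 = 1 := by
    rw [← map_pow]
    refine act_eq_one ι fun X => ?_
    rw [Matrix.eta_fin_two X]
    simp only [pow_succ, pow_zero, one_mul, lin_mul, lin_uu, Units.val_neg, Units.val_one, Int.cast_neg,
      Int.cast_one, Matrix.smul_of, Matrix.smul_cons, Matrix.smul_empty, smul_eq_mul, neg_one_mul]
    ext i j
    fin_cases i <;> fin_cases j <;> simp
    · linear_combination (2 * X 0 1 + 2 * X 1 0 + 12 * X 1 1) * h3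
    · linear_combination (2 * X 1 1) * h3
    · linear_combination (2 * X 1 1) * h3
  have c2 : act ι ((uu : SL(2, F)), (-1 : ℤˣ)) ^ 2 ≠ 1 := fun h => by
    have := congrFun (congrFun (d 2 h !![0, 0; 0, 1]) 0) 1
    simp only [pow_two, lin_mul] at this
    simp [lin_uu] at this
    exact one_ne_zero (α := F) (by linear_combination h3 - this)
  have c3 : act ι ((uu : SL(2, F)), (-1 : ℤˣ)) ^ 3 ≠ 1 := fun h => by
    have := congrFun (congrFun (d 3 h !![0, 0; 0, 1]) 1) 1
    simp only [pow_succ, pow_zero, one_mul, lin_mul] at this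
    simp [lin_uu] at this
    exact one_ne_zero (α := F) (by linear_combination this + h3)
  set y := act ι ((uu : SL(2, F)), (-1 : ℤˣ))
  have hdvd := orderOf_dvd_of_pow_eq_one c6
  have n2 : ¬ orderOf y ∣ 2 := fun h => c2 (orderOf_dvd_iff_pow_eq_one.1 h)
  have n3 : ¬ orderOf y ∣ 3 := fun h => c3 (orderOf_dvd_iff_pow_eq_one.1 h)
  have hle := Nat.le_of_dvd (by norm_num) hdvd
  interval_cases hh : orderOf y <;> omega

theorem exists_nine : ∃ s : Grp F ι, orderOf s = 9 := by
  haveI : Fact (Nat.Prime 3) := ⟨Nat.prime_three⟩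
  have h3 : (3 : F) = 0 := CharP.ofNat_eq_zero F 3
  set x : (act (F := F) ι).range := ⟨act ι (uu, 1), ⟨_, rfl⟩⟩
  set v : Vec F ι := Multiplicative.ofAdd fun _ => !![0, 0; 0, 1]
  set s : Grp F ι := ⟨v, x⟩
  refine ⟨s, orderOf_eq_prime_pow (p := 3) (n := 1) ?_ ?_⟩
  · rw [pow_one]; intro h
    obtain ⟨i⟩ := ‹Nonempty ι›
    have := congrArg SemidirectProduct.left h
    rw [pow_succ, pow_two, SemidirectProduct.mul_left, SemidirectProduct.mul_left,
      SemidirectProduct.one_left] at this
    have h' := congrArg (fun w : Vec F ι => w.toAdd i) this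
    simp only [toAdd_mul, Pi.add_apply, SemidirectProduct.mul_right, map_mul, MulAut.mul_apply,
      Subgroup.coe_subtype, s, x, act_apply, v, toAdd_ofAdd, lin_uu, toAdd_one, Pi.zero_apply,
      Units.val_one, Int.cast_one, one_smul] at h'
    have h00 := congrFun (congrFun h' 0) 0
    simp [Matrix.add_apply] at h00
    exact one_ne_zero (α := F) (by linear_combination 2 * h3 - h00)
  · have hx : s.right ^ 3 = 1 := by
      refine Subtype.ext ?_
      rw [SubgroupClass.coe_pow]
      show act ι ((uu : SL(2, F)), 1) ^ 3 = 1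
      rw [← map_pow]
      refine act_eq_one ι fun X => ?_
      rw [Matrix.eta_fin_two X]
      simp only [pow_succ, pow_zero, one_mul, lin_mul, lin_uu, Units.val_one, Int.cast_one, one_smul]
      ext i j
      fin_cases i <;> fin_cases j <;> simp
      · linear_combination (X 0 1 + X 1 0 + 3 * X 1 1) * h3
      · linear_combination (X 1 1) * h3
      · linear_combination (X 1 1) * h3
    exact pow_three_mul ι s hx

theorem exists_pred {m : ℕ} (hm : 1 ≤ m) (hq : Fintype.card F = 3 ^ (2 * m + 1)) :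
    ∃ s : Grp F ι, orderOf s = Fintype.card F - 1 := by
  classical
  have hmod : Fintype.card F % 4 = 3 := by
    rw [hq, pow_succ, pow_mul, Nat.mul_mod, Nat.pow_mod]; norm_num
  have h3 : (3 : F) = 0 := CharP.ofNat_eq_zero F 3
  obtain ⟨a, ha⟩ := IsCyclic.exists_ofOrder_eq_natCard (α := Fˣ)
  rw [Nat.card_eq_fintype_card, Fintype.card_units] at ha
  set d : SL(2, F) := ⟨!![(a : F), 0; 0, ((a⁻¹ : Fˣ) : F)], by simp [Matrix.det_fin_two]⟩
  set x : (act (F := F) ι).range := ⟨act ι (d, -1), ⟨_, rfl⟩⟩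
  refine ⟨SemidirectProduct.inr x, ?_⟩
  rw [orderOf_injective _ SemidirectProduct.inr_injective, ← Subgroup.orderOf_coe]
  refine Nat.dvd_antisymm (orderOf_dvd_of_pow_eq_one ?_) ?_
  · rw [← map_pow, Prod.pow_def]
    have hd : d ^ (Fintype.card F - 1) = 1 := by
      refine Two.pow_card_pred_eq_one d (a : F) ?_ ?_
      · simp [d, Matrix.trace_fin_two]; field_simp; ring
      · intro h
        simp [d, Matrix.trace_fin_two] at h
        have h1 : ((a : F) - (a : F)⁻¹) ^ 2 = 0 := by
          have : (a : F) * (a : F)⁻¹ = 1 := mul_inv_cancel₀ a.ne_zero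
          linear_combination h - 4 * this
        have h2 : (a : F) * a = 1 := by
          have := sub_eq_zero.1 (pow_eq_zero_iff (two_ne_zero) |>.1 h1)
          nth_rewrite 2 [this]
          exact mul_inv_cancel₀ a.ne_zero
        have h5 : orderOf a ∣ 2 := orderOf_dvd_of_pow_eq_one (Units.ext (by simpa [pow_two] using h2))
        have h6 := Nat.le_of_dvd (by norm_num) h5
        have h7 : 3 ≤ Fintype.card F := by omega
        rw [ha] at h6
        have h8 : Fintype.card F = 3 := by omega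
        obtain rfl : m = 0 := by
          by_contra hm0
          have : 3 ^ 3 ≤ 3 ^ (2 * m + 1) := Nat.pow_le_pow_right (by norm_num) (by omega)
          omega
        omega
    rw [hd, (show Even (Fintype.card F - 1) from ⟨(Fintype.card F - 1) / 2, by omega⟩).neg_one_pow]
    exact map_one _
  · set j := orderOf (act ι (d, -1))
    have hj : act ι ((d, -1) ^ j) = 1 := by rw [map_pow]; exact pow_orderOf_eq_one _
    set y : Fˣ := -(a⁻¹ * a⁻¹)
    have hpow : ∀ n : ℕ, lin ((d, -1) ^ n) !![0, 1; 0, 0] = !![0, ((y ^ n : Fˣ) : F); 0, 0] := by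
      intro n
      induction n with
      | zero => simp [lin_one]
      | succ n ih =>
        rw [pow_succ', lin_mul, ih, lin]
        have : (tw d).1ᵀ = !![(a : F) ^ 3, 0; 0, ((a⁻¹ : Fˣ) : F) ^ 3] := by
          ext i j; rw [Matrix.transpose_apply, tw_apply]; fin_cases i <;> fin_cases j <;> simp [d]
        rw [this]
        ext i j
        fin_cases i <;> fin_cases j <;> simp [d, y, pow_succ', Matrix.mul_apply, Fin.sum_univ_two]
        field_simp
    have hy : y ^ j = 1 := by
      have := congrFun (congrFun (lin_of_act_eq_one ι hj !![0, 1; 0, 0]) 0) 1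
      rw [hpow] at this
      exact Units.ext (by simpa using this)
    have h4 : a ^ (4 * j) = 1 := by
      have e : (y ^ 2) ^ j = 1 := by rw [← pow_mul, mul_comm, pow_mul, hy, one_pow]
      have : y ^ 2 = (a ^ 4)⁻¹ := by simp [y, pow_succ, mul_assoc]
      rw [this, inv_pow, inv_eq_one, ← pow_mul] at e
      exact e
    have hd1 : Fintype.card F - 1 ∣ 4 * j := ha ▸ orderOf_dvd_of_pow_eq_one h4
    obtain ⟨A, hA⟩ : ∃ A, Fintype.card F - 1 = 2 * A := ⟨(Fintype.card F - 1) / 2, by omega⟩
    have hAodd : Odd A := Nat.odd_iff.2 (by omega)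
    have hAj : A ∣ j := by
      have h1 : A ∣ 2 * j := Nat.dvd_of_mul_dvd_mul_left (by norm_num : 0 < 2)
        (by rw [← hA, ← mul_assoc]; exact hd1)
      exact (Nat.coprime_two_right.2 hAodd).dvd_of_dvd_mul_left h1
    obtain ⟨l, hl⟩ := hAj
    rcases Nat.even_or_odd l with ⟨r, hr⟩ | hodd
    · exact ⟨r, by rw [hA, hl, hr]; ring⟩
    · exfalso
      have h1 : y ^ j = -1 := by
        have e0 : (-(a⁻¹ * a⁻¹)) ^ j = -((a⁻¹ * a⁻¹) ^ j) := (hl ▸ hAodd.mul hodd).neg_pow _
        have e1 : (a⁻¹ * a⁻¹) ^ j = 1 := by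
          rw [hl, ← pow_two, ← pow_mul, ← mul_assoc, ← hA, pow_mul, inv_pow, ← ha,
            pow_orderOf_eq_one, inv_one, one_pow]
        rw [show y ^ j = (-(a⁻¹ * a⁻¹)) ^ j from rfl, e0, e1]
      rw [hy] at h1
      have := congrArg Units.val h1
      simp at this
      exact one_ne_zero (α := F) (by linear_combination h3 - this)

theorem exists_succ {m : ℕ} (hq : Fintype.card F = 3 ^ (2 * m + 1)) :
    ∃ s : Grp F ι, orderOf s = (Fintype.card F + 1) / 2 := by
  classical
  haveI : Fact (Nat.Prime 3) := ⟨Nat.prime_three⟩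
  have hmod : Fintype.card F % 4 = 3 := by
    rw [hq, pow_succ, pow_mul, Nat.mul_mod, Nat.pow_mod]; norm_num
  obtain ⟨g, hg⟩ := Two.exists_orderOf_card_succ (F := F) 3
  set x : (act (F := F) ι).range := ⟨act ι (g, 1), ⟨_, rfl⟩⟩
  refine ⟨SemidirectProduct.inr x, ?_⟩
  rw [orderOf_injective _ SemidirectProduct.inr_injective, ← Subgroup.orderOf_coe]
  refine Nat.dvd_antisymm (orderOf_dvd_of_pow_eq_one ?_) ?_
  · rw [← map_pow, Prod.pow_def, one_pow]
    obtain ⟨c, hc, hc4⟩ := scalar_of_sq (g := g ^ ((Fintype.card F + 1) / 2)) (by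
      rw [← pow_add, show (Fintype.card F + 1) / 2 + (Fintype.card F + 1) / 2 = Fintype.card F + 1 by omega,
        ← hg, pow_orderOf_eq_one])
    exact act_eq_one ι fun X => lin_scalar hc hc4 rfl X
  · set j := orderOf (act ι (g, 1))
    have hj : act ι ((g, 1) ^ j) = 1 := by rw [map_pow]; exact pow_orderOf_eq_one _
    rw [Prod.pow_def, one_pow] at hj
    set k := g ^ j
    have e00 := lin_of_act_eq_one ι hj !![1, 0; 0, 0]
    have e11 := lin_of_act_eq_one ι hj !![0, 0; 0, 1]
    have a4 := congrFun (congrFun e00 0) 0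
    have c0 := congrFun (congrFun e00 1) 0
    have d4 := congrFun (congrFun e11 1) 1
    have b0 := congrFun (congrFun e11 0) 1
    simp [lin, Matrix.mul_apply, Fin.sum_univ_two, tw_apply] at a4 c0 d4 b0
    have ha : k.1 0 0 * k.1 0 0 = 1 := four_root hq (by linear_combination a4)
    have hd : k.1 1 1 * k.1 1 1 = 1 := four_root hq (by linear_combination d4)
    have hc : k.1 1 0 = 0 := by
      rcases c0 with h | h
      · exact h
      · rw [h, zero_mul] at ha; exact absurd ha.symm one_ne_zero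
    have hb : k.1 0 1 = 0 := by
      rcases b0 with h | h
      · exact h
      · rw [h, zero_mul] at hd; exact absurd hd.symm one_ne_zero
    have hk : k * k = 1 := by
      apply Subtype.ext
      show k.1 * k.1 = 1
      ext i j
      fin_cases i <;> fin_cases j <;> simp [Matrix.mul_apply, Fin.sum_univ_two, hb, hc, ha, hd]
    have : Fintype.card F + 1 ∣ 2 * j := by
      rw [← hg]; exact orderOf_dvd_of_pow_eq_one (by rw [two_mul, pow_add]; exact hk)
    exact Nat.dvd_of_mul_dvd_mul_left (by norm_num : 0 < 2)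
      (by rwa [show 2 * ((Fintype.card F + 1) / 2) = Fintype.card F + 1 by omega])

end Fintype

end Cfsg.Agent.Lib.ReeCube
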